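import Cfsg.Agent.H17.LB.FInt

/-!
# S4879, row `F₄(2^a).2`, `p = 7`: the integer lemma, second form (helper17, after helper23)

Only the degree of the Steinberg character is used: `S(q b) = 1` modulo `7`, and `q b ≠ (1, 0, 0)`.
-/

set_option autoImplicit false

namespace Cfsg.Agent.H17.LB

open Finset

theorem fB_two : ∀ x ∈ Finset.Icc (-3 : ℤ) 3, ∀ y ∈ Finset.Icc (-3 : ℤ) 3, ∀ z ∈ Finset.Icc (-3 : ℤ) 3,
    (x + y + z) % 7 = 1 → ¬ (x = 1 ∧ y = 0 ∧ z = 0) → x % 2 ≠ 0 → y % 2 = 0 → z % 2 = 0 →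
    (19 - 2 * (x * x)) * (21 - 2 * (y * y)) < (14 - 2 * (x * y)) * (14 - 2 * (x * y)) ∨
    (19 - 2 * (x * x)) * (21 - 2 * (z * z)) < (14 - 2 * (x * z)) * (14 - 2 * (x * z)) ∨
    (21 - 2 * (y * y)) * (21 - 2 * (z * z)) < (14 - 2 * (y * z)) * (14 - 2 * (y * z)) := by
  decide +kernel

/-- the determinant -/
def dB (m00 m11 m22 m01 m02 m12 : ℤ) : ℤ :=
  m00 * m11 * m22 - m00 * m12 * m12 - m01 * m01 * m22 + m01 * m12 * m02 + m02 * m01 * m12 - m02 * m11 * m02

/-- the contradiction -/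
def cB (m00 m11 m22 m01 m02 m12 : ℤ) : Bool :=
  decide (m00 < 0) || decide (m11 < 0) || decide (m22 < 0) || decide (m00 * m11 < m01 * m01) ||
    decide (m00 * m22 < m02 * m02) || decide (m11 * m22 < m12 * m12) || decide (dB m00 m11 m22 m01 m02 m12 < 0) ||
    decide (dB m00 m11 m22 m01 m02 m12 % 8 = 5)

theorem fB_three : ∀ x ∈ Finset.Icc (-3 : ℤ) 3, ∀ y ∈ Finset.Icc (-3 : ℤ) 3, ∀ z ∈ Finset.Icc (-3 : ℤ) 3,
    (x + y + z) % 7 = 1 → ¬ (x = 1 ∧ y = 0 ∧ z = 0) →
    ∀ u ∈ Finset.Icc (-3 : ℤ) 3, (1 + x + u) % 2 = 0 → ∀ v ∈ Finset.Icc (-3 : ℤ) 3, (y + v) % 2 = 0 →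
    ∀ w ∈ Finset.Icc (-3 : ℤ) 3, (z + w) % 2 = 0 →
    cB (19 - 2 * (x * x + u * u)) (21 - 2 * (y * y + v * v)) (21 - 2 * (z * z + w * w))
      (14 - 2 * (x * y + u * v)) (14 - 2 * (x * z + u * w)) (14 - 2 * (y * z + v * w)) = true := by
  decide +kernel

theorem sq_mod_eight (D : ℤ) : D ^ 2 % 8 ≠ 5 := by
  have h : D % 8 = 0 ∨ D % 8 = 1 ∨ D % 8 = 2 ∨ D % 8 = 3 ∨ D % 8 = 4 ∨ D % 8 = 5 ∨ D % 8 = 6 ∨ D % 8 = 7 := by omega
  rw [pow_two, Int.mul_emod]
  rcases h with h | h | h | h | h | h | h | h <;> rw [h] <;> decide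

/-- **the integer lemma, second form** -/
theorem f4_int_one {ι κ : Type*} [Fintype ι] [Fintype κ] (q : ι → Fin 3 → ℤ) (s d : κ → Fin 3 → ℤ)
    (hG : ∀ i j, 2 * ∑ n, q n i * q n j + ∑ n, s n i * s n j = 7 * ((if i = j then 1 else 0) + 2))
    (hD : ∀ i j, ∑ n, d n i * d n j = 7 * ((if i = j then 1 else 0) + 2))
    (hpar : ∀ n i, (2 : ℤ) ∣ s n i - d n i) (hS : ∀ n, (7 : ℤ) ∣ d n 0 + d n 1 + d n 2)
    {a b : ι} (hab : a ≠ b) (ha : ∀ i, q a i = ![1, 0, 0] i) (hb : (7 : ℤ) ∣ q b 0 + q b 1 + q b 2 - 1)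
    (hb' : q b ≠ ![1, 0, 0]) :
    10 ≤ 2 * Fintype.card ι + Fintype.card κ := by
  classical
  by_contra hcon
  -- at least three singles
  have h1 : ∑ n, (d n 0 + d n 1 + d n 2) ^ 2 = 147 := by
    have e : ∀ n, (d n 0 + d n 1 + d n 2) ^ 2 = d n 0 * d n 0 + d n 1 * d n 1 + d n 2 * d n 2 +
        2 * (d n 0 * d n 1) + 2 * (d n 0 * d n 2) + 2 * (d n 1 * d n 2) := fun n => by ring
    simp only [e, sum_add_distrib, ← mul_sum, hD]
    decide
  choose t ht using hS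
  have h2 : ∑ n, t n ^ 2 = 3 := by
    have e : ∀ n, (d n 0 + d n 1 + d n 2) ^ 2 = 49 * t n ^ 2 := fun n => by rw [ht]; ring
    simp only [e, ← mul_sum] at h1
    omega
  have h3 : 3 ≤ Fintype.card κ := by
    have h4 : ∀ n, t n ^ 2 ≤ 1 := by
      intro n
      have h5 : t n ^ 2 ≤ ∑ m, t m ^ 2 := single_le_sum (f := fun m => t m ^ 2) (fun m _ => sq_nonneg _) (mem_univ n)
      rw [h2] at h5
      have h6 : t n < 2 := by nlinarith
      have h7 : -2 < t n := by nlinarith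
      generalize t n = x at *
      interval_cases x <;> norm_num
    have h5 : ∑ n, t n ^ 2 ≤ ∑ _n : κ, (1 : ℤ) := sum_le_sum fun n _ => h4 n
    rw [h2, sum_const, card_univ, nsmul_eq_mul, mul_one] at h5
    exact_mod_cast h5
  -- parity
  have h4 : ∀ j, (2 : ℤ) ∣ ∑ n, q n j * q n j := by
    intro j
    have h5 := hG j j
    have h6 := hD j j
    have h7 : (4 : ℤ) ∣ ∑ n, (d n j * d n j - s n j * s n j) := by
      refine dvd_sum fun n _ => ?_
      obtain ⟨u, hu⟩ := hpar n j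
      have : s n j = d n j + 2 * u := by omega
      rw [this]
      exact ⟨-(u * (d n j + u)), by ring⟩
    rw [sum_sub_distrib] at h7
    omega
  have hS2 : ∀ f : ι → ℤ, ∑ n, f n = f a + f b + ∑ n ∈ (univ.erase a).erase b, f n := by
    intro f
    rw [← add_sum_erase univ f (mem_univ a), ← add_sum_erase (univ.erase a) f (mem_erase.2 ⟨hab.symm, mem_univ b⟩),
      add_assoc]
  have h5 : Fintype.card ι = ((univ.erase a).erase b).card + 2 := by
    rw [card_erase_of_mem (mem_erase.2 ⟨hab.symm, mem_univ b⟩), card_erase_of_mem (mem_univ a), card_univ]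
    have : 2 ≤ Fintype.card ι := by
      rw [← card_univ, ← card_pair hab]
      exact card_le_card (subset_univ _)
    omega
  -- Cauchy-Schwarz
  have hCS : ∀ i j, (∑ n, s n i * s n j) * (∑ n, s n i * s n j) ≤ (∑ n, s n i * s n i) * (∑ n, s n j * s n j) := by
    intro i j
    have := Finset.sum_mul_sq_le_sq_mul_sq univ (fun n => s n i) (fun n => s n j)
    simpa only [pow_two] using this
  have hnn : ∀ i, 0 ≤ ∑ n, s n i * s n i := fun i => sum_nonneg fun n _ => mul_self_nonneg _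
  have hqnn : ∀ (i : Fin 3) (T : Finset ι), 0 ≤ ∑ n ∈ T, q n i * q n i := fun i T =>
    sum_nonneg fun n _ => mul_self_nonneg _
  have a0 : q a 0 = 1 := ha 0
  have a1 : q a 1 = 0 := ha 1
  have a2 : q a 2 = 0 := ha 2
  have hmem : ∀ t : ℤ, t * t ≤ 10 → t ∈ Finset.Icc (-3 : ℤ) 3 := fun t ht =>
    Finset.mem_Icc.2 ⟨by nlinarith, by nlinarith⟩
  have hne : ¬ (q b 0 = 1 ∧ q b 1 = 0 ∧ q b 2 = 0) := by
    rintro ⟨e0, e1, e2⟩
    refine hb' (funext fun i => ?_)
    fin_cases i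
    · exact e0
    · exact e1
    · exact e2
  have hle : ∀ i, ∀ n, q n i * q n i ≤ 10 := by
    intro i n
    have h6 : q n i * q n i ≤ ∑ m, q m i * q m i :=
      single_le_sum (f := fun m => q m i * q m i) (fun m _ => mul_self_nonneg _) (mem_univ n)
    have h7 := hG i i
    have h8 := hnn i
    rw [if_pos rfl] at h7
    omega
  have hbm : ∀ i, q b i ∈ Finset.Icc (-3 : ℤ) 3 := fun i => hmem _ (hle i b)
  have hb7 : (q b 0 + q b 1 + q b 2) % 7 = 1 := by omega
  have par2 : ∀ t : ℤ, t * t % 2 = t % 2 := by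
    intro t
    rcases Int.emod_two_eq_zero_or_one t with h | h <;> rw [Int.mul_emod, h] <;> rfl
  have hp0 := h4 0
  have hp1 := h4 1
  have hp2 := h4 2
  have g00 := hG 0 0
  have g11 := hG 1 1
  have g22 := hG 2 2
  have g01 := hG 0 1
  have g02 := hG 0 2
  have g12 := hG 1 2
  rw [if_pos rfl] at g00 g11 g22
  rw [if_neg (by decide)] at g01 g02 g12
  have c01 := hCS 0 1
  have c02 := hCS 0 2
  have c12 := hCS 1 2
  have n0 := hnn 0
  have n1 := hnn 1
  have n2 := hnn 2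
  have B0 := hbm 0
  have B1 := hbm 1
  have B2 := hbm 2
  have pb0 := par2 (q b 0)
  have pb1 := par2 (q b 1)
  have pb2 := par2 (q b 2)
  rcases Nat.eq_zero_or_pos ((univ.erase a).erase b).card with h0 | hpos
  · -- two pairs
    rw [Finset.card_eq_zero] at h0
    rw [hS2, h0, sum_empty] at hp0 hp1 hp2 g00 g11 g22 g01 g02 g12
    rw [a0] at hp0 g00 g01 g02
    rw [a1] at hp1 g11 g01 g12
    rw [a2] at hp2 g22 g02 g12
    have m00 : ∑ n, s n 0 * s n 0 = 19 - 2 * (q b 0 * q b 0) := by linarith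
    have m11 : ∑ n, s n 1 * s n 1 = 21 - 2 * (q b 1 * q b 1) := by linarith
    have m22 : ∑ n, s n 2 * s n 2 = 21 - 2 * (q b 2 * q b 2) := by linarith
    have m01 : ∑ n, s n 0 * s n 1 = 14 - 2 * (q b 0 * q b 1) := by linarith
    have m02 : ∑ n, s n 0 * s n 2 = 14 - 2 * (q b 0 * q b 2) := by linarith
    have m12 : ∑ n, s n 1 * s n 2 = 14 - 2 * (q b 1 * q b 2) := by linarith
    rw [m00, m11, m01] at c01
    rw [m00, m22, m02] at c02
    rw [m11, m22, m12] at c12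
    rcases fB_two _ B0 _ B1 _ B2 hb7 hne (by omega) (by omega) (by omega) with h | h | h
    · exact absurd c01 (not_le.2 h)
    · exact absurd c02 (not_le.2 h)
    · exact absurd c12 (not_le.2 h)
  · -- three pairs and three singles
    have h7 : ((univ.erase a).erase b).card = 1 := by omega
    have h8 : Fintype.card κ = 3 := by omega
    obtain ⟨c, hc⟩ := card_eq_one.1 h7
    rw [hS2, hc, sum_singleton] at hp0 hp1 hp2 g00 g11 g22 g01 g02 g12
    rw [a0] at hp0 g00 g01 g02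
    rw [a1] at hp1 g11 g01 g12
    rw [a2] at hp2 g22 g02 g12
    have m00 : ∑ n, s n 0 * s n 0 = 19 - 2 * (q b 0 * q b 0 + q c 0 * q c 0) := by linarith
    have m11 : ∑ n, s n 1 * s n 1 = 21 - 2 * (q b 1 * q b 1 + q c 1 * q c 1) := by linarith
    have m22 : ∑ n, s n 2 * s n 2 = 21 - 2 * (q b 2 * q b 2 + q c 2 * q c 2) := by linarith
    have m01 : ∑ n, s n 0 * s n 1 = 14 - 2 * (q b 0 * q b 1 + q c 0 * q c 1) := by linarith
    have m02 : ∑ n, s n 0 * s n 2 = 14 - 2 * (q b 0 * q b 2 + q c 0 * q c 2) := by linarith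
    have m12 : ∑ n, s n 1 * s n 2 = 14 - 2 * (q b 1 * q b 2 + q c 1 * q c 2) := by linarith
    have pc0 := par2 (q c 0)
    have pc1 := par2 (q c 1)
    have pc2 := par2 (q c 2)
    have key := fB_three _ B0 _ B1 _ B2 hb7 hne _ (hmem _ (hle 0 c)) (by omega) _ (hmem _ (hle 1 c)) (by omega) _
      (hmem _ (hle 2 c)) (by omega)
    rw [← m00, ← m11, ← m22, ← m01, ← m02, ← m12] at key
    -- the matrix of the `s`
    let ε : Fin 3 ≃ κ := (Fintype.equivFinOfCardEq h8).symm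
    let S : Matrix (Fin 3) (Fin 3) ℤ := fun n i => s (ε n) i
    have h9 : ∀ i j, (S.transpose * S) i j = ∑ n, s n i * s n j := by
      intro i j
      rw [Matrix.mul_apply]
      exact ε.sum_comp (fun n => s n i * s n j)
    have h10 : (S.transpose * S).det = S.det ^ 2 := by
      rw [Matrix.det_mul, Matrix.det_transpose, pow_two]
    have sy : ∀ i j, ∑ n, s n i * s n j = ∑ n, s n j * s n i := fun i j => sum_congr rfl fun n _ => mul_comm _ _
    rw [Matrix.det_fin_three] at h10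
    simp only [h9] at h10
    rw [sy 1 0, sy 2 0, sy 2 1] at h10
    have h11 : dB (∑ n, s n 0 * s n 0) (∑ n, s n 1 * s n 1) (∑ n, s n 2 * s n 2) (∑ n, s n 0 * s n 1)
        (∑ n, s n 0 * s n 2) (∑ n, s n 1 * s n 2) = S.det ^ 2 := by
      rw [← h10, dB]
    have h12 := sq_mod_eight S.det
    have h13 := sq_nonneg S.det
    rw [← h11] at h12 h13
    simp only [cB, Bool.or_eq_true, decide_eq_true_eq] at key
    rcases key with ((((((h | h) | h) | h) | h) | h) | h) | h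
    · omega
    · omega
    · omega
    · exact absurd c01 (not_le.2 h)
    · exact absurd c02 (not_le.2 h)
    · exact absurd c12 (not_le.2 h)
    · omega
    · exact h12 h

end Cfsg.Agent.H17.LB
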