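import Cfsg.Agent.H666.Clif.Gall
import Cfsg.Agent.H232.LB.Coset
import Cfsg.Agent.Characters.Clifford
import Cfsg.Agent.H17.LB.FIntB

/-!
# S4879, row `F₄(2^a).2`, `p = 7`, piece F2b: Clifford theory for a normal subgroup of index two (helper17)

* `card_over`, `card_under` : the characters over `θ` and under `χ`;
* `ten_le` : the ten characters, from the integral rows `qN` of the characters of `N`.
-/

set_option autoImplicit false
set_option linter.unusedSectionVars false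

namespace Cfsg.Agent.H17.LB

open Cfsg Cfsg.Agent.H666.Clif Cfsg.Agent.Characters.Core
open scoped ComplexConjugate

universe u

section

variable {G : Type u} [Group G] [Finite G] (N : Subgroup G) [N.Normal]

omit [Finite G] [N.Normal] in
theorem mul_mem_of_index (hN : N.index = 2) {a b : G} (ha : a ∉ N) (hb : b ∉ N) : a * b ∈ N := by
  rw [Subgroup.mul_mem_iff_of_index_two hN]
  exact ⟨fun h => absurd h ha, fun h => absurd h hb⟩

omit [Finite G] [N.Normal] in
/-- a linear character trivial on `N` -/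
theorem lin_eq (hN : N.index = 2) {s0 : G} (hs0 : s0 ∉ N) {l m : G →* ℂˣ} (hl : ∀ g, l g = 1 ↔ g ∈ N)
    (hm : ∀ g ∈ N, m g = 1) : m = 1 ∨ m = l := by
  have h2 : ∀ k : G →* ℂˣ, (∀ g ∈ N, k g = 1) → k s0 = 1 ∨ k s0 = -1 := by
    intro k hk
    have h1 : k s0 * k s0 = 1 := by rw [← map_mul]; exact hk _ (mul_mem_of_index N hN hs0 hs0)
    have h3 : ((k s0 : ℂˣ) : ℂ) * (k s0 : ℂˣ) = 1 := by rw [← Units.val_mul, h1, Units.val_one]
    rcases mul_self_eq_one_iff.1 h3 with h | h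
    · left; exact Units.ext (by rw [h, Units.val_one])
    · right; exact Units.ext (by rw [h, Units.val_neg, Units.val_one])
  have h3 : ∀ g, g ∉ N → s0⁻¹ * g ∈ N := fun g hg =>
    mul_mem_of_index N hN (fun h => hs0 (inv_mem_iff.1 h)) hg
  have hl1 : l s0 = -1 := (h2 l fun g hg => (hl g).2 hg).resolve_left fun h => hs0 ((hl s0).1 h)
  have ext' : ∀ k : G →* ℂˣ, (∀ g ∈ N, k g = 1) → k s0 = m s0 → m = k := by
    intro k hk hks
    ext g : 1
    by_cases hg : g ∈ N
    · rw [hm g hg, hk g hg]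
    · have e1 := hm _ (h3 g hg)
      have e2 := hk _ (h3 g hg)
      rw [map_mul, map_inv, inv_mul_eq_one] at e1 e2
      rw [← e1, ← e2, hks]
  rcases h2 m hm with h | h
  · left; exact ext' 1 (fun _ _ => rfl) (by rw [h]; rfl)
  · right; exact ext' l (fun g hg => (hl g).2 hg) (by rw [h, hl1])

/-- the norm of the restriction -/
theorem norm_res [Fintype G] [Fintype N] (hN : N.index = 2) {l : G →* ℂˣ} (hl : ∀ g, l g = 1 ↔ g ∈ N)
    (χ : IrrCharacter G) :
    classInner (fun n : N => (χ : G → ℂ) n) (fun n : N => (χ : G → ℂ) n) =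
      1 + classInner (tl l χ : G → ℂ) (χ : G → ℂ) := by
  classical
  have h1 := classInner_irr_self χ.2
  rw [classInner_def] at h1
  rw [classInner_def, classInner_def]
  have hc : (Nat.card G : ℂ) = 2 * Nat.card N := by
    rw [← N.card_mul_index, hN]; push_cast; ring
  have hN0 : (Nat.card N : ℂ) ≠ 0 := card_ne_zero_complex
  have hG0 : (Nat.card G : ℂ) ≠ 0 := card_ne_zero_complex
  have h2 : ∑ n : N, (χ : G → ℂ) n * conj ((χ : G → ℂ) n) =
      ∑ g : G, if g ∈ N then (χ : G → ℂ) g * conj ((χ : G → ℂ) g) else 0 := by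
    rw [← Finset.sum_filter]
    exact (Finset.sum_subtype (Finset.univ.filter fun g => g ∈ N) (fun x => by simp)
      (fun g => (χ : G → ℂ) g * conj ((χ : G → ℂ) g))).symm
  have hl' : ∀ g, g ∉ N → (l g : ℂ) = -1 := by
    intro g hg
    have h3 : l g * l g = 1 := by rw [← map_mul, hl]; exact mul_mem_of_index N hN hg hg
    have h4 : ((l g : ℂˣ) : ℂ) * (l g : ℂˣ) = 1 := by rw [← Units.val_mul, h3, Units.val_one]
    rcases mul_self_eq_one_iff.1 h4 with h | h
    · exact absurd ((hl g).1 (Units.ext (by rw [h, Units.val_one]))) hg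
    · exact h
  have h3 : 2 * ∑ g : G, (if g ∈ N then (χ : G → ℂ) g * conj ((χ : G → ℂ) g) else 0) =
      ∑ g : G, (χ : G → ℂ) g * conj ((χ : G → ℂ) g) + ∑ g : G, (tl l χ : G → ℂ) g * conj ((χ : G → ℂ) g) := by
    rw [Finset.mul_sum, ← Finset.sum_add_distrib]
    refine Finset.sum_congr rfl fun g _ => ?_
    rw [tl_apply]
    split_ifs with hg
    · rw [(hl g).2 hg, Units.val_one]; ring
    · rw [hl' g hg]; ring
  rw [h2, hc]
  rw [hc, inv_mul_eq_one₀ (mul_ne_zero two_ne_zero hN0)] at h1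
  rw [← h1] at h3
  generalize (∑ g : G, if g ∈ N then (χ : G → ℂ) g * conj ((χ : G → ℂ) g) else 0) = S at h3 ⊢
  generalize ∑ g : G, (tl l χ : G → ℂ) g * conj ((χ : G → ℂ) g) = T at h3 ⊢
  field_simp
  linear_combination h3

variable {s0 : G} {l : G →* ℂˣ} {sig : IrrCharacter N → IrrCharacter N}

/-- the conjugate also lies under `χ` -/
theorem ov_sig (hsig : ∀ θ n, (sig θ : N → ℂ) n = (θ : N → ℂ) (MulAut.conjNormal s0 n)) {χ : IrrCharacter G}
    {θ : IrrCharacter N} (h : Ov N χ θ) : Ov N χ (sig θ) := by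
  have := Fintype.ofFinite G
  have := Fintype.ofFinite N
  rw [ov_iff] at h ⊢
  have h1 := Characters.Clifford.classInner_restrict_conjNormal (N := N) (isIrr_isClassFunction χ.2) (θ : N → ℂ) s0
  have h2 : (sig θ : N → ℂ) = (θ : N → ℂ) ∘ (MulAut.conjNormal s0 : MulAut N) := funext fun n => hsig θ n
  rw [h2, h1]
  exact h

/-- the characters under `χ` -/
theorem under (hN : N.index = 2) (hs0 : s0 ∉ N)
    (hsig : ∀ θ n, (sig θ : N → ℂ) n = (θ : N → ℂ) (MulAut.conjNormal s0 n)) {χ : IrrCharacter G}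
    {θ η : IrrCharacter N} (h : Ov N χ θ) (h' : Ov N χ η) : η = θ ∨ η = sig θ := by
  have := Fintype.ofFinite G
  have := Fintype.ofFinite N
  rw [ov_iff] at h h'
  obtain ⟨g, hg⟩ := Characters.Clifford.exists_conj_of_constituents N χ.2 θ.2 η.2 h h'
  by_cases hgN : g ∈ N
  · left
    refine Subtype.ext (funext fun n => ?_)
    rw [hg]
    have h1 : (MulAut.conjNormal g : MulAut N) n = (⟨g, hgN⟩ : N) * n * (⟨g, hgN⟩ : N)⁻¹ := by
      ext
      simp
    rw [Function.comp_apply, h1]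
    exact isIrr_isClassFunction θ.2 _ _
  · right
    refine Subtype.ext (funext fun n => ?_)
    have h3 : s0⁻¹ * g ∈ N := mul_mem_of_index N hN (fun h => hs0 (inv_mem_iff.1 h)) hgN
    rw [hg, hsig]
    have h1 : (MulAut.conjNormal g : MulAut N) n =
        (MulAut.conjNormal s0 : MulAut N) ((⟨_, h3⟩ : N) * n * (⟨_, h3⟩ : N)⁻¹) := by
      ext
      simp [mul_assoc]
    have h2 : (fun m : N => (θ : N → ℂ) (MulAut.conjNormal s0 m)) = (sig θ : N → ℂ) := funext fun m => (hsig θ m).symm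
    rw [Function.comp_apply, h1, ← hsig, ← hsig]
    exact isIrr_isClassFunction (sig θ).2 _ _

/-- an invariant constituent: `χ` is not its twist -/
theorem tl_ne (hN : N.index = 2) (hs0 : s0 ∉ N) (hl : ∀ g, l g = 1 ↔ g ∈ N)
    (hsig : ∀ θ n, (sig θ : N → ℂ) n = (θ : N → ℂ) (MulAut.conjNormal s0 n)) {χ : IrrCharacter G}
    {θ : IrrCharacter N} (h : Ov N χ θ) (hθ : sig θ = θ) : tl l χ ≠ χ := by
  classical
  have := Fintype.ofFinite G
  have := Fintype.ofFinite N
  have := finite_irr (G := N)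
  have := Fintype.ofFinite (IrrCharacter N)
  intro hχ
  have h1 := norm_res N hN hl χ
  rw [hχ, classInner_irr_self χ.2] at h1
  obtain ⟨a, ha, ha'⟩ := CharDeep.CliffordCorr.exists_nat_coeffs
    (Characters.Clifford.isCharacter_restrict N (isIrr_isCharacter χ.2))
  rw [ha, classInner_sum_smul_sum_smul, Finset.sum_eq_single θ] at h1
  · rw [Complex.conj_natCast] at h1
    have h2 : a θ * a θ = 2 := by
      have h3 : ((a θ * a θ : ℕ) : ℂ) = ((2 : ℕ) : ℂ) := by push_cast; rw [h1]; norm_num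
      exact_mod_cast h3
    have h3 : a θ < 2 := by nlinarith
    interval_cases h4 : a θ <;> omega
  · intro η _ hη
    have h2 : ¬ Ov N χ η := fun h2 => by
      rcases under N hN hs0 hsig h h2 with h3 | h3
      · exact hη h3
      · exact hη (h3.trans hθ)
    rw [ov_iff, ha' η, not_not] at h2
    rw [h2, zero_mul]
  · intro h2
    exact absurd (Finset.mem_univ _) h2

/-- a constituent which is not invariant: `χ` is its twist -/
theorem tl_eq (hN : N.index = 2) (hl : ∀ g, l g = 1 ↔ g ∈ N)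
    (hsig : ∀ θ n, (sig θ : N → ℂ) n = (θ : N → ℂ) (MulAut.conjNormal s0 n)) {χ : IrrCharacter G}
    {θ : IrrCharacter N} (h : Ov N χ θ) (hθ : sig θ ≠ θ) : tl l χ = χ := by
  classical
  have := Fintype.ofFinite G
  have := Fintype.ofFinite N
  by_contra hχ
  have h1 := norm_res N hN hl χ
  rw [classInner_irr_ne (tl l χ).2 χ.2 (fun h => hχ (Subtype.ext h)), add_zero] at h1
  have h2 := isIrr_of_classInner_self (Characters.Clifford.isCharacter_restrict N (isIrr_isCharacter χ.2)) h1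
  have h3 : ∀ η : IrrCharacter N, Ov N χ η → (η : N → ℂ) = fun n : N => (χ : G → ℂ) n := by
    intro η hη
    rw [ov_iff] at hη
    by_contra hne
    exact hη (classInner_irr_ne h2 η.2 fun h => hne h.symm)
  apply hθ
  refine Subtype.ext ?_
  rw [h3 _ h, h3 _ (ov_sig N hsig h)]

/-- some constituent -/
theorem exists_under (χ : IrrCharacter G) : ∃ θ : IrrCharacter N, Ov N χ θ := by
  classical
  have := Fintype.ofFinite G
  have := Fintype.ofFinite N
  have := finite_irr (G := N)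
  have := Fintype.ofFinite (IrrCharacter N)
  obtain ⟨a, ha, ha'⟩ := CharDeep.CliffordCorr.exists_nat_coeffs
    (Characters.Clifford.isCharacter_restrict N (isIrr_isCharacter χ.2))
  by_contra hno
  push Not at hno
  have h0 : ∀ θ, (a θ : ℂ) = 0 := by
    intro θ
    have := hno θ
    rwa [ov_iff, ha' θ, not_not] at this
  have h1 := congrFun ha 1
  simp only [h0, zero_smul, Finset.sum_const_zero] at h1
  exact isIrr_apply_one_ne_zero χ.2 h1

/-- the characters over `θ` -/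
theorem above (hN : N.index = 2) (hs0 : s0 ∉ N) (hl : ∀ g, l g = 1 ↔ g ∈ N) {χ ψ : IrrCharacter G}
    {θ : IrrCharacter N} (h : Ov N χ θ) (h' : Ov N ψ θ) : ψ = χ ∨ ψ = tl l χ := by
  have hc : IsCyclic (G ⧸ N) := by
    have : Fact (Nat.Prime 2) := ⟨Nat.prime_two⟩
    exact isCyclic_of_prime_card (p := 2) hN
  obtain ⟨m, hm, rfl⟩ := exists_tl N hc h h'
  rcases lin_eq N hN hs0 hl hm with rfl | rfl
  · left; exact tl_one χ
  · right; rfl

/-- **The count and the sums.** -/
theorem main (hN : N.index = 2) (hs0 : s0 ∉ N) (hl : ∀ g, l g = 1 ↔ g ∈ N)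
    (hsig : ∀ θ n, (sig θ : N → ℂ) n = (θ : N → ℂ) (MulAut.conjNormal s0 n)) {B : Set (IrrCharacter G)}
    {BN : Set (IrrCharacter N)} (cover : ∀ χ θ, Ov N χ θ → (χ ∈ B ↔ θ ∈ BN)) (dn : IrrCharacter G → IrrCharacter N)
    (hdn : ∀ χ, Ov N χ (dn χ)) [Fintype {θ : IrrCharacter N // θ ∈ BN ∧ sig θ = θ}]
    [Fintype {χ : IrrCharacter G // χ ∈ B ∧ tl l χ = χ}] :
    Nat.card B = 2 * Fintype.card {θ : IrrCharacter N // θ ∈ BN ∧ sig θ = θ} +
      Fintype.card {χ : IrrCharacter G // χ ∈ B ∧ tl l χ = χ} ∧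
    (∀ F : IrrCharacter N → ℤ, (∀ θ, θ ∉ BN → F θ = 0) → ∑ᶠ θ, F θ =
      ∑ θ : {θ : IrrCharacter N // θ ∈ BN ∧ sig θ = θ}, F θ +
        ∑ χ : {χ : IrrCharacter G // χ ∈ B ∧ tl l χ = χ}, (F (dn χ) + F (sig (dn χ)))) ∧
    (∀ χ ∈ B, tl l χ = χ → dn χ ∈ BN ∧ sig (dn χ) ∈ BN ∧ sig (sig (dn χ)) = dn χ) := by
  classical
  have := finite_irr (G := N)
  have := finite_irr (G := G)
  have := Fintype.ofFinite (IrrCharacter N)
  have := Fintype.ofFinite (IrrCharacter G)
  choose up hup using exists_ov (G := G) N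
  have hsg : ∀ χ, tl l χ = χ → sig (dn χ) ≠ dn χ := fun χ hχ h => tl_ne N hN hs0 hl hsig (hdn χ) h hχ
  have hsg2 : ∀ χ, tl l χ = χ → sig (sig (dn χ)) ≠ sig (dn χ) := fun χ hχ h =>
    tl_ne N hN hs0 hl hsig (ov_sig N hsig (hdn χ)) h hχ
  refine ⟨?_, ?_, ?_⟩
  · -- the count
    have h1 : Nat.card B = (Finset.univ.filter fun χ => χ ∈ B).card := by
      rw [Nat.card_eq_fintype_card, Fintype.card_subtype]
    have h2 : (Finset.univ.filter fun χ => χ ∈ B).card =
        (Finset.univ.filter fun χ : IrrCharacter G => χ ∈ B ∧ tl l χ = χ).card +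
          (Finset.univ.filter fun χ : IrrCharacter G => χ ∈ B ∧ ¬ tl l χ = χ).card := by
      rw [← Finset.filter_filter, ← Finset.filter_filter, Finset.card_filter_add_card_filter_not]
    have h3 : (Finset.univ.filter fun χ : IrrCharacter G => χ ∈ B ∧ ¬ tl l χ = χ).card =
        ∑ θ ∈ Finset.univ.filter (fun θ : IrrCharacter N => θ ∈ BN ∧ sig θ = θ), 2 := by
      rw [Finset.card_eq_sum_card_fiberwise (f := dn)
        (t := Finset.univ.filter (fun θ : IrrCharacter N => θ ∈ BN ∧ sig θ = θ))]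
      · refine Finset.sum_congr rfl fun θ hθ => ?_
        rw [Finset.mem_filter] at hθ
        obtain ⟨-, hθ1, hθ2⟩ := hθ
        have h4 : ((Finset.univ.filter fun χ : IrrCharacter G => χ ∈ B ∧ ¬ tl l χ = χ).filter fun χ => dn χ = θ) =
            {up θ, tl l (up θ)} := by
          ext χ
          simp only [Finset.mem_filter, Finset.mem_univ, true_and, Finset.mem_insert, Finset.mem_singleton]
          constructor
          · rintro ⟨-, hχ⟩
            have h5 := hdn χ
            rw [hχ] at h5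
            exact above N hN hs0 hl (hup θ) h5
          · intro h
            have h5 : Ov N χ θ := by
              rcases h with rfl | rfl
              · exact hup θ
              · exact (ov_tl N (fun x hx => (hl x).2 hx)).2 (hup θ)
            refine ⟨⟨(cover χ θ h5).2 hθ1, tl_ne N hN hs0 hl hsig h5 hθ2⟩, ?_⟩
            rcases under N hN hs0 hsig h5 (hdn χ) with h6 | h6
            · exact h6
            · exact h6.trans hθ2
        rw [h4, Finset.card_pair (tl_ne N hN hs0 hl hsig (hup θ) hθ2).symm]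
      · intro χ hχ
        simp only [Finset.coe_filter, Finset.mem_univ, true_and, Set.mem_ofPred_eq] at hχ ⊢
        refine ⟨(cover χ _ (hdn χ)).1 hχ.1, ?_⟩
        by_contra h4
        exact hχ.2 (tl_eq N hN hl hsig (hdn χ) h4)
    rw [h1, h2, h3, Finset.sum_const, smul_eq_mul, Fintype.card_subtype, Fintype.card_subtype]
    ring
  · intro F hF
    rw [finsum_eq_sum_of_fintype]
    have h1 : ∑ θ, F θ = ∑ θ ∈ Finset.univ.filter (fun θ => θ ∈ BN), F θ := by
      symm
      refine Finset.sum_subset (Finset.subset_univ _) fun θ _ hθ => hF θ fun h => hθ ?_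
      simpa using h
    have h2 : ∑ θ ∈ Finset.univ.filter (fun θ => θ ∈ BN), F θ =
        ∑ θ ∈ Finset.univ.filter (fun θ : IrrCharacter N => θ ∈ BN ∧ sig θ = θ), F θ +
          ∑ θ ∈ Finset.univ.filter (fun θ : IrrCharacter N => θ ∈ BN ∧ ¬ sig θ = θ), F θ := by
      rw [← Finset.filter_filter, ← Finset.filter_filter, Finset.sum_filter_add_sum_filter_not]
    have h3 : ∑ θ ∈ Finset.univ.filter (fun θ : IrrCharacter N => θ ∈ BN ∧ ¬ sig θ = θ), F θ =
        ∑ χ ∈ Finset.univ.filter (fun χ : IrrCharacter G => χ ∈ B ∧ tl l χ = χ), (F (dn χ) + F (sig (dn χ))) := by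
      rw [← Finset.sum_fiberwise_of_maps_to (g := up)
        (t := Finset.univ.filter (fun χ : IrrCharacter G => χ ∈ B ∧ tl l χ = χ))]
      · refine Finset.sum_congr rfl fun χ hχ => ?_
        rw [Finset.mem_filter] at hχ
        obtain ⟨-, hχ1, hχ2⟩ := hχ
        have h4 : ((Finset.univ.filter fun θ : IrrCharacter N => θ ∈ BN ∧ ¬ sig θ = θ).filter fun θ => up θ = χ) =
            {dn χ, sig (dn χ)} := by
          ext θ
          simp only [Finset.mem_filter, Finset.mem_univ, true_and, Finset.mem_insert, Finset.mem_singleton]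
          constructor
          · rintro ⟨-, hθ⟩
            have h5 := hup θ
            rw [hθ] at h5
            exact under N hN hs0 hsig (hdn χ) h5
          · intro h
            have h5 : Ov N χ θ := by
              rcases h with rfl | rfl
              · exact hdn χ
              · exact ov_sig N hsig (hdn χ)
            refine ⟨⟨(cover χ θ h5).1 hχ1, fun h6 => tl_ne N hN hs0 hl hsig h5 h6 hχ2⟩, ?_⟩
            rcases above N hN hs0 hl h5 (hup θ) with h6 | h6
            · exact h6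
            · exact h6.trans hχ2
        rw [h4, Finset.sum_pair (hsg χ hχ2).symm]
      · intro θ hθ
        simp only [Finset.mem_filter, Finset.mem_univ, true_and] at hθ ⊢
        exact ⟨(cover _ _ (hup θ)).2 hθ.1, tl_eq N hN hl hsig (hup θ) hθ.2⟩
    rw [h1, h2, h3]
    congr 1
    · exact Finset.sum_subtype _ (fun θ => by simp) _
    · exact Finset.sum_subtype _ (fun θ => by simp) (fun χ => F (dn χ) + F (sig (dn χ)))
  · intro χ hχ1 hχ2
    refine ⟨(cover χ _ (hdn χ)).1 hχ1, (cover χ _ (ov_sig N hsig (hdn χ))).1 hχ1, ?_⟩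
    rcases under N hN hs0 hsig (ov_sig N hsig (hdn χ)) (hdn χ) with h | h
    · exact absurd h.symm (hsg χ hχ2)
    · exact h.symm

/-- **Ten characters.** -/
theorem ten_le (hN : N.index = 2) {s0 : G} (hs0 : s0 ∉ N) (sig : IrrCharacter N → IrrCharacter N)
    (hsig : ∀ θ n, (sig θ : N → ℂ) n = (θ : N → ℂ) (MulAut.conjNormal s0 n)) {B : Set (IrrCharacter G)}
    {BN : Set (IrrCharacter N)} (cover : ∀ χ θ, Ov N χ θ → (χ ∈ B ↔ θ ∈ BN)) (qN : IrrCharacter N → Fin 3 → ℤ)
    (zero : ∀ θ, θ ∉ BN → qN θ = 0)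
    (gram : ∀ i j, ∑ᶠ θ, qN θ i * qN θ j = 7 * ((if i = j then 1 else 0) + 2))
    (orth : ∀ i j, ∑ᶠ θ, qN θ i * qN (sig θ) j = 0)
    (cong : ∀ θ ∈ BN, (7 : ℤ) ∣ qN θ 0 + qN θ 1 + qN θ 2 - charDegree (θ : N → ℂ)) {θ1 θ0 : IrrCharacter N}
    (h1 : θ1 ∈ BN) (hs1 : sig θ1 = θ1) (hq1 : qN θ1 = ![1, 0, 0]) (h0 : θ0 ∈ BN) (hs0' : sig θ0 = θ0)
    (hd : (7 : ℤ) ∣ charDegree (θ0 : N → ℂ) - 1) (hq0 : qN θ0 ≠ ![1, 0, 0]) : 10 ≤ Nat.card B := by
  classical
  have := finite_irr (G := N)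
  have := finite_irr (G := G)
  have := Fintype.ofFinite (IrrCharacter N)
  have := Fintype.ofFinite (IrrCharacter G)
  obtain ⟨l, -, hl⟩ := H232.LB.exists_lin N Nat.prime_two hN
  choose dn hdn using exists_under (G := G) N
  obtain ⟨hcard, hsum, hm⟩ := main N hN hs0 hl hsig cover dn hdn
  rw [hcard]
  have hg := fun i j => (hsum (fun θ => qN θ i * qN θ j) fun θ hθ => by rw [zero θ hθ]; simp).symm.trans (gram i j)
  have ho := fun i j => (hsum (fun θ => qN θ i * qN (sig θ) j) fun θ hθ => by rw [zero θ hθ]; simp).symm.trans (orth i j)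
  refine f4_int_one (fun θ : {θ : IrrCharacter N // θ ∈ BN ∧ sig θ = θ} => qN θ)
    (fun χ : {χ : IrrCharacter G // χ ∈ B ∧ tl l χ = χ} => fun i => qN (dn χ) i + qN (sig (dn χ)) i)
    (fun χ : {χ : IrrCharacter G // χ ∈ B ∧ tl l χ = χ} => fun i => qN (dn χ) i - qN (sig (dn χ)) i)
    (fun i j => ?_) (fun i j => ?_) (fun χ i => ⟨qN (sig (dn χ)) i, by ring⟩) (fun χ => ?_)
    (a := ⟨θ1, h1, hs1⟩) (b := ⟨θ0, h0, hs0'⟩) ?_ (fun i => by rw [hq1]) ?_ hq0
  · rw [← add_zero (7 * ((if i = j then (1 : ℤ) else 0) + 2)), ← hg i j, ← ho i j]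
    have e : ∑ θ : {θ : IrrCharacter N // θ ∈ BN ∧ sig θ = θ}, qN θ i * qN (sig θ) j =
        ∑ θ : {θ : IrrCharacter N // θ ∈ BN ∧ sig θ = θ}, qN θ i * qN θ j :=
      Finset.sum_congr rfl fun θ _ => by rw [θ.2.2]
    rw [e]
    have e2 : ∑ χ : {χ : IrrCharacter G // χ ∈ B ∧ tl l χ = χ}, (qN (dn χ) i * qN (sig (dn χ)) j +
        qN (sig (dn χ)) i * qN (sig (sig (dn χ))) j) = ∑ χ : {χ : IrrCharacter G // χ ∈ B ∧ tl l χ = χ},
        (qN (dn χ) i * qN (sig (dn χ)) j + qN (sig (dn χ)) i * qN (dn χ) j) :=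
      Finset.sum_congr rfl fun χ _ => by rw [(hm χ χ.2.1 χ.2.2).2.2]
    rw [e2]
    have e3 : ∑ χ : {χ : IrrCharacter G // χ ∈ B ∧ tl l χ = χ}, (qN (dn χ) i + qN (sig (dn χ)) i) *
        (qN (dn χ) j + qN (sig (dn χ)) j) = ∑ χ : {χ : IrrCharacter G // χ ∈ B ∧ tl l χ = χ},
        (qN (dn χ) i * qN (dn χ) j + qN (sig (dn χ)) i * qN (sig (dn χ)) j) +
        ∑ χ : {χ : IrrCharacter G // χ ∈ B ∧ tl l χ = χ},
        (qN (dn χ) i * qN (sig (dn χ)) j + qN (sig (dn χ)) i * qN (dn χ) j) := by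
      rw [← Finset.sum_add_distrib]
      exact Finset.sum_congr rfl fun χ _ => by ring
    rw [e3]
    ring
  · rw [← sub_zero (7 * ((if i = j then (1 : ℤ) else 0) + 2)), ← hg i j, ← ho i j]
    have e : ∑ θ : {θ : IrrCharacter N // θ ∈ BN ∧ sig θ = θ}, qN θ i * qN (sig θ) j =
        ∑ θ : {θ : IrrCharacter N // θ ∈ BN ∧ sig θ = θ}, qN θ i * qN θ j :=
      Finset.sum_congr rfl fun θ _ => by rw [θ.2.2]
    rw [e]
    have e2 : ∑ χ : {χ : IrrCharacter G // χ ∈ B ∧ tl l χ = χ}, (qN (dn χ) i * qN (sig (dn χ)) j +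
        qN (sig (dn χ)) i * qN (sig (sig (dn χ))) j) = ∑ χ : {χ : IrrCharacter G // χ ∈ B ∧ tl l χ = χ},
        (qN (dn χ) i * qN (sig (dn χ)) j + qN (sig (dn χ)) i * qN (dn χ) j) :=
      Finset.sum_congr rfl fun χ _ => by rw [(hm χ χ.2.1 χ.2.2).2.2]
    rw [e2]
    have e3 : ∑ χ : {χ : IrrCharacter G // χ ∈ B ∧ tl l χ = χ}, (qN (dn χ) i - qN (sig (dn χ)) i) *
        (qN (dn χ) j - qN (sig (dn χ)) j) = ∑ χ : {χ : IrrCharacter G // χ ∈ B ∧ tl l χ = χ},
        (qN (dn χ) i * qN (dn χ) j + qN (sig (dn χ)) i * qN (sig (dn χ)) j) -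
        ∑ χ : {χ : IrrCharacter G // χ ∈ B ∧ tl l χ = χ},
        (qN (dn χ) i * qN (sig (dn χ)) j + qN (sig (dn χ)) i * qN (dn χ) j) := by
      rw [← Finset.sum_sub_distrib]
      exact Finset.sum_congr rfl fun χ _ => by ring
    rw [e3]
    ring
  · obtain ⟨m1, m2, -⟩ := hm χ χ.2.1 χ.2.2
    have c1 := cong _ m1
    have c2 := cong _ m2
    have e : charDegree (sig (dn χ) : N → ℂ) = charDegree (dn χ : N → ℂ) := by
      unfold charDegree
      rw [hsig, map_one]
    rw [e] at c2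
    have h3 := dvd_sub c1 c2
    have e4 : qN (dn χ) 0 + qN (dn χ) 1 + qN (dn χ) 2 - (charDegree (dn χ : N → ℂ) : ℤ) -
        (qN (sig (dn χ)) 0 + qN (sig (dn χ)) 1 + qN (sig (dn χ)) 2 - (charDegree (dn χ : N → ℂ) : ℤ)) =
        (qN (dn χ) 0 - qN (sig (dn χ)) 0) + (qN (dn χ) 1 - qN (sig (dn χ)) 1) +
          (qN (dn χ) 2 - qN (sig (dn χ)) 2) := by ring
    rw [e4] at h3
    exact h3
  · intro h
    apply hq0
    rw [← hq1]
    exact congrArg qN (congrArg Subtype.val h).symm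
  · have h3 := dvd_add (cong _ h0) hd
    rw [sub_add_sub_cancel] at h3
    exact h3

/-- the restriction of a character, if it is irreducible -/
theorem res_inv {s0 : G} {sig : IrrCharacter N → IrrCharacter N}
    (hsig : ∀ θ n, (sig θ : N → ℂ) n = (θ : N → ℂ) (MulAut.conjNormal s0 n)) {χ : IrrCharacter G}
    {θ : IrrCharacter N} (h : ∀ n : N, (θ : N → ℂ) n = (χ : G → ℂ) n) : Ov N χ θ ∧ sig θ = θ := by
  have := Fintype.ofFinite G
  have := Fintype.ofFinite N
  refine ⟨?_, Subtype.ext (funext fun n => ?_)⟩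
  · rw [ov_iff]
    have e : (fun n : N => (χ : G → ℂ) n) = (θ : N → ℂ) := (funext h).symm
    rw [e, classInner_irr_self θ.2]
    exact one_ne_zero
  · rw [hsig, h, h, MulAut.conjNormal_apply]
    exact isIrr_isClassFunction χ.2 _ _

end

end Cfsg.Agent.H17.LB
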