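import Cfsg.Agent.H17.LB.Clif
import Cfsg.Agent.H684.CoverCount
import Cfsg.Agent.H611.CoverPrincipal

/-!
# S4879, row `F₄(q)`, `p = 7`: the principal blocks of `G` and of a subgroup of index two (helper17)

* `cover_iff` : `N.index = 2`, `C_G(P) ≤ N`: if `χ` lies over `θ`, then `χ ∈ B₀(G) ↔ θ ∈ B₀(N)`.
-/

set_option autoImplicit false

namespace Cfsg.Agent.H17.LB

open Cfsg Cfsg.Agent.H666.Clif Cfsg.Agent.Characters.Core Subgroup
open scoped ComplexConjugate

universe u

variable {G : Type u} [Group G] [Finite G] {p : ℕ} {M : Ideal AlgInt}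

/-- the principal block is closed under twists by characters trivial on the elements of full defect -/
theorem tl_mem (hM : IsPModular p M) {l : G →* ℂˣ}
    (hl : ∀ g, l g ≠ 1 → p ∣ (centralizer ({g} : Set G)).index) {χ : IrrCharacter G}
    (hχ : χ ∈ principalBlock M G) : tl l χ ∈ principalBlock M G := by
  have := Blocks.Local.isPrime_of_isPModular hM
  intro g
  have hc : centralChar (tl l χ : G → ℂ) g = (l g : ℂ) * centralChar (χ : G → ℂ) g := by
    unfold centralChar
    rw [tl_apply, tl_apply, map_one, Units.val_one, one_mul]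
    ring
  have h0 : MemLocalIdeal M (centralChar (fun _ : G => (1 : ℂ)) g - centralChar (χ : G → ℂ) g) := hχ g
  by_cases h : l g = 1
  · rw [hc, h, Units.val_one, one_mul]
    exact h0
  · have h3 : MemLocalIdeal M (centralChar (fun _ : G => (1 : ℂ)) g) := by
      obtain ⟨k, hk⟩ := hl g h
      have h4 : centralChar (fun _ : G => (1 : ℂ)) g = (p : ℂ) * (k : ℂ) := by
        unfold centralChar
        rw [hk]
        push_cast
        ring
      rw [h4]
      refine Blocks.Local.memLocalIdeal_mul_right ?_ (Blocks.Local.memLocalRing_natCast k)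
      have h5 := Blocks.Local.memLocalIdeal_of_mem (Blocks.Local.p_mem_of_isPModular hM)
      simpa using h5
    have h4 : MemLocalIdeal M (centralChar (χ : G → ℂ) g) := (Blocks.Local.memLocalIdeal_iff_of_sub h0).1 h3
    rw [hc]
    exact Blocks.Local.memLocalIdeal_sub h3 (Blocks.Local.memLocalIdeal_mul_left
      (Blocks.Local.memLocalRing_of_isIntegral (H232.LB.isIntegral_lin l g)) h4)

/-- **The principal blocks.** -/
theorem cover_iff [Fact p.Prime] (hM : IsPModular p M) (P : Sylow p G) (N : Subgroup G) [hNn : N.Normal]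
    (hN : N.index = 2) (hC : centralizer ((P : Subgroup G) : Set G) ≤ N) (χ : IrrCharacter G) (θ : IrrCharacter N)
    (h : Ov N χ θ) : χ ∈ principalBlock M G ↔ θ ∈ principalBlock M N := by
  have := Fintype.ofFinite G
  have := Fintype.ofFinite N
  constructor
  · intro hχ
    exact H611.CoverPrincipal.mem_principalBlock_of_over p hM N χ θ ((ov_iff N χ θ).1 h) hχ
  · intro hθ
    obtain ⟨ψ, hψ, hψθ⟩ := H684.CoverCount.exists_over hM N θ hθ
    obtain ⟨s0, hs0⟩ : ∃ s0 : G, s0 ∉ N := by
      by_contra hno
      push Not at hno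
      have : N = ⊤ := eq_top_iff.2 fun g _ => hno g
      rw [this, index_top] at hN
      omega
    obtain ⟨l, -, hl⟩ := H232.LB.exists_lin N Nat.prime_two hN
    rcases above N hN hs0 hl ((ov_iff N ψ θ).2 hψθ) h with rfl | rfl
    · exact hψ
    · refine tl_mem hM (fun g hg => ?_) hψ
      by_contra hd
      -- a Sylow subgroup centralises `g`
      apply hg
      rw [hl]
      obtain ⟨Q, hQ⟩ : ∃ Q : Sylow p G, (Q : Subgroup G) ≤ centralizer ({g} : Set G) := by
        obtain ⟨R⟩ : Nonempty (Sylow p (centralizer ({g} : Set G))) := inferInstance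
        have h1 : ¬ p ∣ ((R : Subgroup (centralizer ({g} : Set G))).map (centralizer ({g} : Set G)).subtype).index := by
          rw [← relIndex_mul_index (K := centralizer ({g} : Set G)) (map_subtype_le _), relIndex, subgroupOf,
            comap_map_eq_self_of_injective (subtype_injective _)]
          intro h2
          rcases (Fact.out : p.Prime).dvd_mul.1 h2 with h3 | h3
          · exact R.not_dvd_index h3
          · exact hd h3
        have h2 : IsPGroup p ((R : Subgroup (centralizer ({g} : Set G))).map (centralizer ({g} : Set G)).subtype) :=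
          R.2.map _
        refine ⟨h2.toSylow h1, ?_⟩
        exact map_subtype_le _
      obtain ⟨a, ha⟩ := MulAction.exists_smul_eq G Q P
      have h1 : a * g * a⁻¹ ∈ centralizer ((P : Subgroup G) : Set G) := by
        rw [mem_centralizer_iff]
        intro y hy
        rw [← ha] at hy
        obtain ⟨z, hz, rfl⟩ := hy
        have h2 := mem_centralizer_singleton_iff.1 (hQ hz)
        simp only [MulDistribMulAction.toMonoidEnd_apply, MulDistribMulAction.toMonoidHom_apply, MulAut.smul_def,
          MulAut.conj_apply]
        calc a * z * a⁻¹ * (a * g * a⁻¹) = a * (z * g) * a⁻¹ := by group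
          _ = a * (g * z) * a⁻¹ := by rw [h2]
          _ = a * g * a⁻¹ * (a * z * a⁻¹) := by group
      have h2 := hNn.conj_mem _ (hC h1) a⁻¹
      have h3 : a⁻¹ * (a * g * a⁻¹) * a⁻¹⁻¹ = g := by group
      rwa [h3] at h2

end Cfsg.Agent.H17.LB
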