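import Mathlib

/-!
# S4879, row `F₄(2^a).2`, `p = 7`: the integer lemma (helper17, after helper98)

`q` : rows of the pairs `χ, χλ`; `s = q₁ + q₂`, `d = q₁ - q₂` for the characters `χ = χλ`. Then there are at least ten
characters.
-/

set_option autoImplicit false

namespace Cfsg.Agent.H17.LB

open Finset

theorem not_sq {z n : ℤ} (k : ℤ) (hk : 0 ≤ k) (h1 : k ^ 2 < n) (h2 : n < (k + 1) ^ 2) : z ^ 2 ≠ n := by
  intro h
  rw [← h] at h1 h2
  have h3 := abs_lt_of_sq_lt_sq h2 (by omega)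
  rw [← sq_abs z] at h1
  have h4 := lt_of_pow_lt_pow_left₀ 2 (abs_nonneg z) h1
  omega

/-- the determinant -/
def dN (x y z : ℤ) : ℤ :=
  (19 - 2 * (x * x)) * (21 - 2 * (y * y)) * (19 - 2 * (z * z)) -
    (19 - 2 * (x * x)) * (14 - 2 * (y * z)) * (14 - 2 * (y * z)) -
    (14 - 2 * (x * y)) * (14 - 2 * (x * y)) * (19 - 2 * (z * z)) +
    (14 - 2 * (x * y)) * (14 - 2 * (y * z)) * (14 - 2 * (x * z)) +
    (14 - 2 * (x * z)) * (14 - 2 * (x * y)) * (14 - 2 * (y * z)) -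
    (14 - 2 * (x * z)) * (21 - 2 * (y * y)) * (14 - 2 * (x * z))

theorem dN_val : ∀ x ∈ Finset.Icc (-3 : ℤ) 3, ∀ y ∈ Finset.Icc (-3 : ℤ) 3, ∀ z ∈ Finset.Icc (-3 : ℤ) 3,
    x % 2 ≠ 0 → y % 2 = 0 → z % 2 ≠ 0 → dN x y z < 0 ∨ dN x y z = 1085 ∨ dN x y z = 301 ∨ dN x y z = 885 := by
  decide +kernel

theorem fin_int {x y z D : ℤ} (hx : x * x ≤ 10) (hy : y * y ≤ 10) (hz : z * z ≤ 10) (hx2 : (2 : ℤ) ∣ 1 + x * x)
    (hy2 : (2 : ℤ) ∣ y * y) (hz2 : (2 : ℤ) ∣ 1 + z * z) (h : dN x y z = D ^ 2) : False := by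
  have hx' : x ∈ Finset.Icc (-3 : ℤ) 3 := Finset.mem_Icc.2 ⟨by nlinarith, by nlinarith⟩
  have hy' : y ∈ Finset.Icc (-3 : ℤ) 3 := Finset.mem_Icc.2 ⟨by nlinarith, by nlinarith⟩
  have hz' : z ∈ Finset.Icc (-3 : ℤ) 3 := Finset.mem_Icc.2 ⟨by nlinarith, by nlinarith⟩
  have odd : ∀ t : ℤ, (2 : ℤ) ∣ 1 + t * t → t % 2 ≠ 0 := by
    intro t ht h0
    obtain ⟨u, hu⟩ := Int.dvd_of_emod_eq_zero h0
    rw [hu] at ht
    obtain ⟨v, hv⟩ := ht
    have : 2 * (v - 2 * (u * u)) = 1 := by linear_combination -hv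
    omega
  have even : y % 2 = 0 := by
    rcases (Int.prime_two).dvd_or_dvd hy2 with h1 | h1 <;> exact Int.emod_eq_zero_of_dvd h1
  rcases dN_val x hx' y hy' z hz' (odd x hx2) even (odd z hz2) with h1 | h1 | h1 | h1
  · rw [h] at h1
    nlinarith [sq_nonneg D]
  · exact not_sq 32 (by norm_num) (by norm_num) (by norm_num) (h.symm.trans h1)
  · exact not_sq 17 (by norm_num) (by norm_num) (by norm_num) (h.symm.trans h1)
  · exact not_sq 29 (by norm_num) (by norm_num) (by norm_num) (h.symm.trans h1)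

/-- **the integer lemma** -/
theorem f4_int {ι κ : Type*} [Fintype ι] [Fintype κ] (q : ι → Fin 3 → ℤ) (s d : κ → Fin 3 → ℤ)
    (hG : ∀ i j, 2 * ∑ n, q n i * q n j + ∑ n, s n i * s n j = 7 * ((if i = j then 1 else 0) + 2))
    (hD : ∀ i j, ∑ n, d n i * d n j = 7 * ((if i = j then 1 else 0) + 2))
    (hpar : ∀ n i, (2 : ℤ) ∣ s n i - d n i) (hS : ∀ n, (7 : ℤ) ∣ d n 0 + d n 1 + d n 2)
    {a b : ι} (hab : a ≠ b) (ha : ∀ i, q a i = ![1, 0, 0] i) (hb : ∃ e : ℤ, e * e = 1 ∧ ∀ i, q b i = e * ![0, 0, 1] i) :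
    10 ≤ 2 * Fintype.card ι + Fintype.card κ := by
  classical
  by_contra hcon
  -- at least three singles
  have h1 : ∑ n, (d n 0 + d n 1 + d n 2) ^ 2 = 147 := by
    have e : ∀ n, (d n 0 + d n 1 + d n 2) ^ 2 = d n 0 * d n 0 + d n 1 * d n 1 + d n 2 * d n 2 +
        2 * (d n 0 * d n 1) + 2 * (d n 0 * d n 2) + 2 * (d n 1 * d n 2) := fun n => by ring
    simp only [e, sum_add_distrib, ← mul_sum, hD]
    decide
  choose t ht using hS
  have h2 : ∑ n, t n ^ 2 = 3 := by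
    have e : ∀ n, (d n 0 + d n 1 + d n 2) ^ 2 = 49 * t n ^ 2 := fun n => by rw [ht]; ring
    simp only [e, ← mul_sum] at h1
    omega
  have h3 : 3 ≤ Fintype.card κ := by
    have h4 : ∀ n, t n ^ 2 ≤ 1 := by
      intro n
      have h5 : t n ^ 2 ≤ ∑ m, t m ^ 2 := single_le_sum (f := fun m => t m ^ 2) (fun m _ => sq_nonneg _) (mem_univ n)
      rw [h2] at h5
      have h6 : t n < 2 := by nlinarith
      have h7 : -2 < t n := by nlinarith
      generalize t n = x at *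
      interval_cases x <;> norm_num
    have h5 : ∑ n, t n ^ 2 ≤ ∑ _n : κ, (1 : ℤ) := sum_le_sum fun n _ => h4 n
    rw [h2, sum_const, card_univ, nsmul_eq_mul, mul_one] at h5
    exact_mod_cast h5
  -- parity
  have h4 : ∀ j, (2 : ℤ) ∣ ∑ n, q n j * q n j := by
    intro j
    have h5 := hG j j
    have h6 := hD j j
    have h7 : (4 : ℤ) ∣ ∑ n, (d n j * d n j - s n j * s n j) := by
      refine dvd_sum fun n _ => ?_
      obtain ⟨u, hu⟩ := hpar n j
      have : s n j = d n j + 2 * u := by omega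
      rw [this]
      exact ⟨-(u * (d n j + u)), by ring⟩
    rw [sum_sub_distrib] at h7
    omega
  obtain ⟨e, he, hb⟩ := hb
  -- a third pair
  have hS2 : ∀ f : ι → ℤ, ∑ n, f n = f a + f b + ∑ n ∈ (univ.erase a).erase b, f n := by
    intro f
    rw [← add_sum_erase univ f (mem_univ a), ← add_sum_erase (univ.erase a) f (mem_erase.2 ⟨hab.symm, mem_univ b⟩),
      add_assoc]
  obtain ⟨c, hc⟩ : ∃ c, c ∈ (univ.erase a).erase b := by
    by_contra hno
    push Not at hno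
    have h5 := h4 0
    rw [hS2, eq_empty_of_forall_notMem hno, sum_empty, ha, hb] at h5
    simp at h5
  have h5 : Fintype.card ι = ((univ.erase a).erase b).card + 2 := by
    rw [card_erase_of_mem (mem_erase.2 ⟨hab.symm, mem_univ b⟩), card_erase_of_mem (mem_univ a), card_univ]
    have : 2 ≤ Fintype.card ι := by
      rw [← card_univ, ← card_pair hab]
      exact card_le_card (subset_univ _)
    omega
  have h6 : 1 ≤ ((univ.erase a).erase b).card := card_pos.2 ⟨c, hc⟩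
  have h7 : ((univ.erase a).erase b).card = 1 := by omega
  have h8 : Fintype.card κ = 3 := by omega
  obtain ⟨c', hc'⟩ := card_eq_one.1 h7
  have : c' = c := by
    rw [hc'] at hc
    exact (mem_singleton.1 hc).symm
  subst this
  -- the matrix of the `s`
  let ε : Fin 3 ≃ κ := (Fintype.equivFinOfCardEq h8).symm
  let S : Matrix (Fin 3) (Fin 3) ℤ := fun n i => s (ε n) i
  have h9 : ∀ i j, (S.transpose * S) i j = 7 * ((if i = j then 1 else 0) + 2) - 2 * (q a i * q a j + q b i * q b j +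
      q c' i * q c' j) := by
    intro i j
    have h10 := hG i j
    rw [hS2, hc', sum_singleton] at h10
    have h11 : (S.transpose * S) i j = ∑ n, s n i * s n j := by
      rw [Matrix.mul_apply]
      exact ε.sum_comp (fun n => s n i * s n j)
    rw [h11]
    linarith
  have h10 : (S.transpose * S).det = S.det ^ 2 := by
    rw [Matrix.det_mul, Matrix.det_transpose, pow_two]
  have hp0 := h4 0
  have hp1 := h4 1
  have hp2 := h4 2
  rw [hS2, hc', sum_singleton, ha, hb] at hp0 hp1 hp2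
  have hn : ∀ j, q c' j * q c' j ≤ 10 := by
    intro j
    have h11 := hG j j
    rw [hS2, hc', sum_singleton] at h11
    have h12 : 0 ≤ ∑ n, s n j * s n j := sum_nonneg fun n _ => mul_self_nonneg _
    have h13 := mul_self_nonneg (q a j)
    have h14 := mul_self_nonneg (q b j)
    rw [if_pos rfl] at h11
    linarith
  have hb0 := hn 0
  have hb1 := hn 1
  have hb2 := hn 2
  have a0 : q a 0 = 1 := ha 0
  have a1 : q a 1 = 0 := ha 1
  have a2 : q a 2 = 0 := ha 2
  have b0 : q b 0 = 0 := by rw [hb]; simp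
  have b1 : q b 1 = 0 := by rw [hb]; simp
  have b2 : q b 2 * q b 2 = 1 := by rw [hb]; simpa using he
  have e00 : (S.transpose * S) 0 0 = 19 - 2 * (q c' 0 * q c' 0) := by
    rw [h9, a0, b0, if_pos rfl]; ring
  have e01 : (S.transpose * S) 0 1 = 14 - 2 * (q c' 0 * q c' 1) := by
    rw [h9, a1, b1, if_neg (by decide)]; ring
  have e02 : (S.transpose * S) 0 2 = 14 - 2 * (q c' 0 * q c' 2) := by
    rw [h9, a2, b0, if_neg (by decide)]; ring
  have e10 : (S.transpose * S) 1 0 = 14 - 2 * (q c' 0 * q c' 1) := by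
    rw [h9, a1, b1, if_neg (by decide)]; ring
  have e11 : (S.transpose * S) 1 1 = 21 - 2 * (q c' 1 * q c' 1) := by
    rw [h9, a1, b1, if_pos rfl]; ring
  have e12 : (S.transpose * S) 1 2 = 14 - 2 * (q c' 1 * q c' 2) := by
    rw [h9, a1, b1, if_neg (by decide)]; ring
  have e20 : (S.transpose * S) 2 0 = 14 - 2 * (q c' 0 * q c' 2) := by
    rw [h9, a2, b0, if_neg (by decide)]; ring
  have e21 : (S.transpose * S) 2 1 = 14 - 2 * (q c' 1 * q c' 2) := by
    rw [h9, a1, b1, if_neg (by decide)]; ring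
  have e22 : (S.transpose * S) 2 2 = 19 - 2 * (q c' 2 * q c' 2) := by
    rw [h9, a2, b2, if_pos rfl]; ring
  rw [Matrix.det_fin_three, e00, e01, e02, e10, e11, e12, e20, e21, e22] at h10
  rw [← hb, b2] at hp2
  rw [← hb, b1] at hp1
  rw [← hb, b0] at hp0
  have a0' : (![1, 0, 0] : Fin 3 → ℤ) 0 = 1 := rfl
  have a1' : (![1, 0, 0] : Fin 3 → ℤ) 1 = 0 := rfl
  have a2' : (![1, 0, 0] : Fin 3 → ℤ) 2 = 0 := rfl
  rw [a0'] at hp0
  rw [a1'] at hp1
  rw [a2'] at hp2
  generalize q c' 0 = x at *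
  generalize q c' 1 = y at *
  generalize q c' 2 = z at *
  generalize S.det = D at *
  refine fin_int (D := D) hb0 hb1 hb2 (by simpa using hp0) (by simpa using hp1) (by simpa using hp2) ?_
  rw [← h10, dN]

end Cfsg.Agent.H17.LB
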