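import Cfsg.Agent.H17.LB.Clif
import Cfsg.Agent.H23.LB.Defs

/-!
# S4879, row `F₄(q)`, `p = 7`: piece F2b in the form of `H23.LB.F2b` (helper17)
-/

set_option autoImplicit false

namespace Cfsg.Agent.H17.LB

open Cfsg Cfsg.Agent.H666.Clif Cfsg.Agent.Characters.Core

universe u

/-- **Piece F2b.** -/
theorem f2b : H23.LB.F2b.{u} := by
  intro G _ _ N _ hN s0 hs0 B BN qN D χ1 χ0 θ1 θ0 hχ1 hχ0 hr1 hr0 hne
  classical
  have := finite_irr (G := N)
  have := finite_irr (G := G)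
  have := Fintype.ofFinite (IrrCharacter N)
  have := Fintype.ofFinite (IrrCharacter G)
  -- the conjugation
  let sig : IrrCharacter N → IrrCharacter N := fun θ =>
    ⟨fun n => (θ : N → ℂ) (MulAut.conjNormal s0 n), Characters.Clifford.isIrr_conjNormal θ.2 s0⟩
  have hsig : ∀ θ n, (sig θ : N → ℂ) n = (θ : N → ℂ) (MulAut.conjNormal s0 n) := fun _ _ => rfl
  obtain ⟨l, -, hl⟩ := H232.LB.exists_lin N Nat.prime_two hN
  choose dn hdn using exists_under (G := G) N
  obtain ⟨hcard, hsum, hm⟩ := main N hN hs0 hl hsig D.cover dn hdn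
  have zero : ∀ θ, θ ∉ BN → qN θ = 0 := fun θ hθ => funext fun i => D.zero θ hθ i
  have gram := fun i j => D.gram i j
  have orth := D.orth sig (fun θ n n' h => by
    rw [hsig]
    exact congrArg _ (Subtype.ext (by rw [MulAut.conjNormal_apply, h])))
  have hg := fun i j => (hsum (fun θ => qN θ i * qN θ j) fun θ hθ => by rw [zero θ hθ]; simp).symm.trans
    ((finsum_eq_sum_of_fintype _).trans (gram i j))
  have ho := fun i j => (hsum (fun θ => qN θ i * qN (sig θ) j) fun θ hθ => by rw [zero θ hθ]; simp).symm.trans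
    ((finsum_eq_sum_of_fintype _).trans (orth i j))
  obtain ⟨hov1, hs1⟩ := res_inv N hsig fun n => (hr1 n).symm
  obtain ⟨hov0, hs0'⟩ := res_inv N hsig fun n => (hr0 n).symm
  have hb1 := (D.cover _ _ hov1).1 hχ1
  have hb0 := (D.cover _ _ hov0).1 hχ0
  let A := {θ : IrrCharacter N // θ ∈ BN ∧ sig θ = θ}
  let K := {χ : IrrCharacter G // χ ∈ B ∧ tl l χ = χ}
  let eA : A ≃ Fin (Fintype.card A) := Fintype.equivFin A
  let eK : K ≃ Fin (Fintype.card K) := Fintype.equivFin K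
  have hA : ∀ f : A → ℤ, ∑ n, f (eA.symm n) = ∑ θ, f θ := fun f => eA.symm.sum_comp f
  have hK : ∀ f : K → ℤ, ∑ n, f (eK.symm n) = ∑ θ, f θ := fun f => eK.symm.sum_comp f
  have e0 : ∀ i j, ∑ θ : A, qN θ i * qN (sig θ) j = ∑ θ : A, qN θ i * qN θ j := fun i j =>
    Finset.sum_congr rfl fun θ _ => by rw [θ.2.2]
  have e2 : ∀ i j, ∑ χ : K, (qN (dn χ) i * qN (sig (dn χ)) j + qN (sig (dn χ)) i * qN (sig (sig (dn χ))) j) =
      ∑ χ : K, (qN (dn χ) i * qN (sig (dn χ)) j + qN (sig (dn χ)) i * qN (dn χ) j) := fun i j =>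
    Finset.sum_congr rfl fun χ _ => by rw [(hm χ χ.2.1 χ.2.2).2.2]
  refine ⟨Fin (Fintype.card A), Fin (Fintype.card K), inferInstance, inferInstance, fun n => qN (eA.symm n).1,
    fun n i => qN (dn (eK.symm n).1) i + qN (sig (dn (eK.symm n).1)) i,
    fun n i => qN (dn (eK.symm n).1) i - qN (sig (dn (eK.symm n).1)) i, eA ⟨θ1, hb1, hs1⟩, eA ⟨θ0, hb0, hs0'⟩,
    fun i j => ?_, fun i j => ?_, fun n i => ⟨qN (sig (dn (eK.symm n).1)) i, by ring⟩, fun n => ?_, ?_, ?_, ?_, ?_⟩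
  · rw [hA fun θ => qN θ.1 i * qN θ.1 j, hK fun χ => (qN (dn χ.1) i + qN (sig (dn χ.1)) i) *
      (qN (dn χ.1) j + qN (sig (dn χ.1)) j)]
    rw [← add_zero (7 * ((if i = j then (1 : ℤ) else 0) + 2)), ← hg i j, ← ho i j, e0, e2]
    have e3 : ∑ χ : K, (qN (dn χ.1) i + qN (sig (dn χ.1)) i) * (qN (dn χ.1) j + qN (sig (dn χ.1)) j) =
        ∑ χ : K, (qN (dn χ) i * qN (dn χ) j + qN (sig (dn χ)) i * qN (sig (dn χ)) j) +
        ∑ χ : K, (qN (dn χ) i * qN (sig (dn χ)) j + qN (sig (dn χ)) i * qN (dn χ) j) := by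
      rw [← Finset.sum_add_distrib]
      exact Finset.sum_congr rfl fun χ _ => by ring
    rw [e3]
    ring
  · rw [hK fun χ => (qN (dn χ.1) i - qN (sig (dn χ.1)) i) * (qN (dn χ.1) j - qN (sig (dn χ.1)) j)]
    rw [← sub_zero (7 * ((if i = j then (1 : ℤ) else 0) + 2)), ← hg i j, ← ho i j, e0, e2]
    have e3 : ∑ χ : K, (qN (dn χ.1) i - qN (sig (dn χ.1)) i) * (qN (dn χ.1) j - qN (sig (dn χ.1)) j) =
        ∑ χ : K, (qN (dn χ) i * qN (dn χ) j + qN (sig (dn χ)) i * qN (sig (dn χ)) j) -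
        ∑ χ : K, (qN (dn χ) i * qN (sig (dn χ)) j + qN (sig (dn χ)) i * qN (dn χ) j) := by
      rw [← Finset.sum_sub_distrib]
      exact Finset.sum_congr rfl fun χ _ => by ring
    rw [e3]
    ring
  · obtain ⟨m1, m2, -⟩ := hm _ (eK.symm n).2.1 (eK.symm n).2.2
    have c1 := D.cong _ m1
    have c2 := D.cong _ m2
    have e : charDegree (sig (dn (eK.symm n).1) : N → ℂ) = charDegree (dn (eK.symm n).1 : N → ℂ) := by
      unfold charDegree
      rw [hsig, map_one]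
    rw [e] at c2
    have h3 := dvd_sub c1 c2
    have e4 : ∀ a b c d a' b' c' : ℤ, a + b + c - d - (a' + b' + c' - d) = (a - a') + (b - b') + (c - c') := by
      intros; ring
    rw [e4] at h3
    exact h3
  · intro h
    apply hne
    exact (congrArg Subtype.val (eA.injective h)).symm
  · show qN (eA.symm (eA _)).1 = _
    rw [Equiv.symm_apply_apply]
  · show qN (eA.symm (eA _)).1 = _
    rw [Equiv.symm_apply_apply]
  · rw [hcard, Fintype.card_fin, Fintype.card_fin]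

end Cfsg.Agent.H17.LB
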