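import Cfsg.Agent.H741.Lb.Defs

/-!
# S4879, row `F₄(q)`, `p = 7`: the element `x` is rational in the subgroup of index two (helper17, after helper283)

* `rat_N`.
-/

set_option autoImplicit false

namespace Cfsg.Agent.H17.LB

open Cfsg Subgroup

/-- Burnside and one class: any two nontrivial elements of `P` are conjugate in the normalizer. -/
theorem conj_norm {G : Type*} [Group G] [Finite G] (h1 : H741.Lb.OneC 7 G) (P : Sylow 7 G)
    (hP : Nat.card P = 7 ^ 2) {x y : G} (hx : x ∈ (P : Subgroup G)) (hx1 : x ≠ 1) (hy : y ∈ (P : Subgroup G))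
    (hy1 : y ≠ 1) : ∃ g ∈ normalizer ((P : Subgroup G) : Set G), g * x * g⁻¹ = y := by
  have : Fact (Nat.Prime 7) := ⟨by norm_num⟩
  have hab : IsMulCommutative (P : Subgroup G) := IsPGroup.isMulCommutative_of_card_eq_prime_sq (p := 7) hP
  obtain ⟨k, hk⟩ := IsPGroup.iff_orderOf.1 P.2 ⟨x, hx⟩
  obtain ⟨m, hm⟩ := IsPGroup.iff_orderOf.1 P.2 ⟨y, hy⟩
  rw [orderOf_mk] at hk hm
  obtain ⟨g, hg⟩ := isConj_iff.1 (h1 x y hx1 hy1 ⟨k, hk⟩ ⟨m, hm⟩)
  have h2 : g⁻¹⁻¹ * x * g⁻¹ ∈ (P : Subgroup G) := by rw [inv_inv, hg]; exact hy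
  obtain ⟨n, hn, h3⟩ := P.conj_eq_normalizer_conj_of_mem x g⁻¹ hx h2
  refine ⟨n⁻¹, inv_mem hn, ?_⟩
  rw [inv_inv, ← h3, inv_inv, hg]

/-- the index of the centralizer of `x` -/
theorem relIndex_norm {G : Type*} [Group G] [Finite G] (h1 : H741.Lb.OneC 7 G) (P : Sylow 7 G)
    (hP : Nat.card P = 7 ^ 2) {x : G} (hx : x ∈ (P : Subgroup G)) (hx1 : x ≠ 1) :
    (centralizer ({x} : Set G)).relIndex (normalizer ((P : Subgroup G) : Set G)) = 48 := by
  let _ : MulAction ↥(normalizer ((P : Subgroup G) : Set G)) G :=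
    MulAction.compHom G ((MulAut.conj : G →* MulAut G).comp (normalizer ((P : Subgroup G) : Set G)).subtype)
  have hsm : ∀ (g : normalizer ((P : Subgroup G) : Set G)) (y : G), g • y = (g : G) * y * (g : G)⁻¹ := fun _ _ => rfl
  have e1 : (centralizer ({x} : Set G)).subgroupOf (normalizer ((P : Subgroup G) : Set G)) =
      MulAction.stabilizer ↥(normalizer ((P : Subgroup G) : Set G)) x := by
    ext g
    rw [mem_subgroupOf, mem_centralizer_singleton_iff, MulAction.mem_stabilizer_iff, hsm, mul_inv_eq_iff_eq_mul]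
  rw [relIndex, e1, MulAction.index_stabilizer]
  have e2 : MulAction.orbit ↥(normalizer ((P : Subgroup G) : Set G)) x = ((P : Subgroup G) : Set G) \ {1} := by
    ext y
    constructor
    · rintro ⟨g, rfl⟩
      refine ⟨?_, ?_⟩
      · exact (mem_normalizer_iff.1 g.2 x).1 hx
      · intro h
        apply hx1
        have h2 : (g : G) * x * (g : G)⁻¹ = 1 := h
        exact conj_eq_one_iff.1 h2
    · rintro ⟨hy, hy1⟩
      obtain ⟨g, hg, hgy⟩ := conj_norm h1 P hP hx hx1 hy hy1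
      exact ⟨⟨g, hg⟩, hgy⟩
  rw [e2, Set.ncard_sdiff_singleton_of_mem (one_mem _), ← Nat.card_coe_set_eq]
  have : Nat.card ((P : Subgroup G) : Set G) = 49 := by rw [← show Nat.card P = 49 from hP]; rfl
  rw [this]

/-- **Rationality in `N`.** -/
theorem rat_N {G : Type*} [Group G] [Finite G] (h1 : H741.Lb.OneC 7 G) (P : Sylow 7 G) (hP : Nat.card P = 7 ^ 2)
    (hel : ∀ y ∈ (P : Subgroup G), y ^ 7 = 1) {x : G} (hx : x ∈ (P : Subgroup G)) (hx1 : x ≠ 1)
    (h3 : (centralizer ((P : Subgroup G) : Set G)).relIndex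
      (normalizer ((P : Subgroup G) : Set G) ⊓ centralizer ({x} : Set G)) = 3)
    (N : Subgroup G) [hNn : N.Normal] (hN : N.index = 2)
    (hcl : ∀ g ∉ N, ∀ n ∈ N, g * x * g⁻¹ ≠ n * x * n⁻¹) :
    ∀ k : ℕ, ¬ 7 ∣ k → ∃ n ∈ N, n * x * n⁻¹ = x ^ k := by
  have : Fact (Nat.Prime 7) := ⟨by norm_num⟩
  have hab : IsMulCommutative (P : Subgroup G) := IsPGroup.isMulCommutative_of_card_eq_prime_sq (p := 7) hP
  set NP := normalizer ((P : Subgroup G) : Set G) with hNP
  set CP := centralizer ((P : Subgroup G) : Set G) with hCP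
  have hCx : ∀ y ∈ (P : Subgroup G), CP ≤ centralizer ({y} : Set G) := fun y hy =>
    centralizer_le (Set.singleton_subset_iff.2 hy)
  have hCN : centralizer ({x} : Set G) ≤ N := by
    intro g hg
    by_contra hgN
    refine hcl g hgN 1 (one_mem _) ?_
    rw [mem_centralizer_singleton_iff] at hg
    rw [hg]
    group
  have hCPNP : CP ≤ NP := by
    intro g hg
    rw [hNP, mem_normalizer_iff]
    intro y
    have h2 : ∀ y ∈ (P : Subgroup G), g * y * g⁻¹ = y := fun y hy => by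
      rw [(mem_centralizer_iff.1 hg y hy).symm]
      group
    constructor
    · intro hy
      rw [h2 y hy]
      exact hy
    · intro hy
      have h4 := h2 _ hy
      have h5 : g * y * g⁻¹ = y := by
        have h6 := congrArg (fun z => g⁻¹ * z * g) h4
        simp only [mul_assoc, inv_mul_cancel_left, inv_mul_cancel, mul_one] at h6
        rw [mul_assoc]
        exact h6
      rwa [h5] at hy
  -- the stabilizers
  have hstab : ∀ y ∈ (P : Subgroup G), y ≠ 1 → CP.relIndex (NP ⊓ centralizer ({y} : Set G)) = 3 := by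
    intro y hy hy1
    have e1 : CP.relIndex NP = 3 * 48 := by
      rw [← relIndex_mul_relIndex CP (NP ⊓ centralizer ({x} : Set G)) NP (le_inf hCPNP (hCx x hx)) inf_le_left, h3,
        inf_relIndex_left, relIndex_norm h1 P hP hx hx1]
    have e2 : CP.relIndex NP = CP.relIndex (NP ⊓ centralizer ({y} : Set G)) * 48 := by
      rw [← relIndex_mul_relIndex CP (NP ⊓ centralizer ({y} : Set G)) NP (le_inf hCPNP (hCx y hy)) inf_le_left,
        inf_relIndex_left, relIndex_norm h1 P hP hy hy1]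
    omega
  -- an involution
  have heven : 2 ∣ CP.relIndex (NP ⊓ N) := by
    have e1 : CP.relIndex NP = 3 * 48 := by
      rw [← relIndex_mul_relIndex CP (NP ⊓ centralizer ({x} : Set G)) NP (le_inf hCPNP (hCx x hx)) inf_le_left, h3,
        inf_relIndex_left, relIndex_norm h1 P hP hx hx1]
    have e2 : CP.relIndex NP = CP.relIndex (NP ⊓ N) * N.relIndex NP := by
      rw [← relIndex_mul_relIndex CP (NP ⊓ N) NP (le_inf hCPNP ((hCx x hx).trans hCN)) inf_le_left,
        inf_relIndex_left]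
    have e3 : N.relIndex NP ∣ 2 := by
      rw [← hN]
      exact relIndex_dvd_index_of_normal N NP
    have e4 : N.relIndex NP ≤ 2 := Nat.le_of_dvd (by norm_num) e3
    rw [e1] at e2
    interval_cases h : N.relIndex NP
    · omega
    · omega
    · omega
  obtain ⟨a, haNP, haN, haC, ha2⟩ : ∃ a : G, a ∈ NP ∧ a ∈ N ∧ a ∉ CP ∧ a ^ 2 ∈ CP := by
    have hnorm : (CP.subgroupOf (NP ⊓ N)).Normal := by
      refine ⟨fun c hc g => ?_⟩
      rw [mem_subgroupOf] at hc ⊢
      rw [hCP, mem_centralizer_iff] at hc ⊢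
      intro y hy
      have hg : (g : G) ∈ NP := g.2.1
      have hy' : (g : G)⁻¹ * y * g ∈ (P : Subgroup G) := by
        have := (mem_normalizer_iff.1 (inv_mem hg) y).1 hy
        rwa [inv_inv] at this
      have h2 := hc _ hy'
      have h4 := congrArg (fun z => (g : G) * z * (g : G)⁻¹) h2
      simp only [Subgroup.coe_mul, Subgroup.coe_inv]
      simp only [mul_assoc, mul_inv_cancel_left] at h4 ⊢
      simpa [mul_assoc] using h4
    have hcard : 2 ∣ Nat.card (↥(NP ⊓ N) ⧸ CP.subgroupOf (NP ⊓ N)) := heven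
    obtain ⟨b, hb⟩ := exists_prime_orderOf_dvd_card' 2 hcard
    obtain ⟨a, rfl⟩ := QuotientGroup.mk'_surjective _ b
    refine ⟨a, a.2.1, a.2.2, fun h => ?_, ?_⟩
    · have h2 : (QuotientGroup.mk' (CP.subgroupOf (NP ⊓ N))) a = 1 := (QuotientGroup.eq_one_iff _).2 h
      rw [h2, orderOf_one] at hb
      norm_num at hb
    · have h2 := pow_orderOf_eq_one ((QuotientGroup.mk' (CP.subgroupOf (NP ⊓ N))) a)
      rw [hb, ← map_pow] at h2
      exact (QuotientGroup.eq_one_iff (N := CP.subgroupOf (NP ⊓ N)) (a ^ 2)).1 h2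
  -- it fixes no element
  have hfix : ∀ y ∈ (P : Subgroup G), a * y * a⁻¹ = y → y = 1 := by
    intro y hy hay
    by_contra hy1
    have h4 := hstab y hy hy1
    apply haC
    have h5 : a ∈ NP ⊓ centralizer ({y} : Set G) := by
      exact ⟨haNP, mem_centralizer_singleton_iff.2 (mul_inv_eq_iff_eq_mul.1 hay)⟩
    have hnorm : (CP.subgroupOf (NP ⊓ centralizer ({y} : Set G))).Normal := by
      refine ⟨fun c hc g => ?_⟩
      rw [mem_subgroupOf] at hc ⊢
      rw [hCP, mem_centralizer_iff] at hc ⊢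
      intro y hy
      have hg : (g : G) ∈ NP := g.2.1
      have hy' : (g : G)⁻¹ * y * g ∈ (P : Subgroup G) := by
        have := (mem_normalizer_iff.1 (inv_mem hg) y).1 hy
        rwa [inv_inv] at this
      have h2 := hc _ hy'
      have h4 := congrArg (fun z => (g : G) * z * (g : G)⁻¹) h2
      simp only [Subgroup.coe_mul, Subgroup.coe_inv]
      simp only [mul_assoc, mul_inv_cancel_left] at h4 ⊢
      simpa [mul_assoc] using h4
    let b := (QuotientGroup.mk' (CP.subgroupOf (NP ⊓ centralizer ({y} : Set G)))) ⟨a, h5⟩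
    have hb2 : b ^ 2 = 1 := by
      show (QuotientGroup.mk' _ _) ^ 2 = 1
      rw [← map_pow]
      exact (QuotientGroup.eq_one_iff _).2 ha2
    have hb3 : b ^ 3 = 1 := by
      have h6 : Nat.card (↥(NP ⊓ centralizer ({y} : Set G)) ⧸ CP.subgroupOf (NP ⊓ centralizer ({y} : Set G))) = 3 := h4
      rw [← h6]
      exact pow_card_eq_one'
    have hb1 : b = 1 := by
      rw [pow_succ, hb2, one_mul] at hb3
      exact hb3
    exact (QuotientGroup.eq_one_iff (N := CP.subgroupOf (NP ⊓ centralizer ({y} : Set G))) ⟨a, h5⟩).1 hb1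
  have hinv : a * x * a⁻¹ = x⁻¹ := by
    have hax : a * x * a⁻¹ ∈ (P : Subgroup G) := (mem_normalizer_iff.1 haNP x).1 hx
    have h4 : x * (a * x * a⁻¹) = 1 := by
      refine hfix _ (mul_mem hx hax) ?_
      have h5 : a * (a * x * a⁻¹) * a⁻¹ = x := by
        have h6 := mem_centralizer_iff.1 ha2 x hx
        have h7 : a * (a * x * a⁻¹) * a⁻¹ = a ^ 2 * x * (a ^ 2)⁻¹ := by
          rw [pow_two, mul_inv_rev]
          simp only [mul_assoc]
        rw [h7, ← h6, mul_inv_cancel_right]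
      have h6 : a * (x * (a * x * a⁻¹)) * a⁻¹ = (a * x * a⁻¹) * (a * (a * x * a⁻¹) * a⁻¹) := by group
      rw [h6, h5]
      have h7 := (hab.is_comm.comm ⟨_, hax⟩ ⟨x, hx⟩ : (⟨_, hax⟩ : (P : Subgroup G)) * ⟨x, hx⟩ = _)
      exact congrArg Subtype.val h7
    exact (inv_eq_of_mul_eq_one_right h4).symm
  -- the conclusion
  intro k hk
  have ho : orderOf x = 7 := by
    refine orderOf_eq_prime (hel x hx) hx1
  have hxk1 : x ^ k ≠ 1 := by
    intro h
    exact hk (ho ▸ orderOf_dvd_of_pow_eq_one h)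
  obtain ⟨g, -, hg⟩ := conj_norm h1 P hP hx hx1 (pow_mem hx k) hxk1
  by_cases hgN : g ∈ N
  · exact ⟨g, hgN, hg⟩
  exfalso
  have hpow : ∀ m : ℕ, g ^ m * x * (g ^ m)⁻¹ = x ^ k ^ m := by
    intro m
    induction m with
    | zero => simp
    | succ m ih =>
      have e : g ^ (m + 1) * x * (g ^ (m + 1))⁻¹ = g ^ m * (g * x * g⁻¹) * (g ^ m)⁻¹ := by
        rw [pow_succ]; group
      rw [e, hg, ← conj_pow, ih, ← pow_mul, pow_succ]
  have hg3 : g ^ 3 ∉ N := by
    intro h
    apply hgN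
    have h2 : g ^ 2 ∈ N := by
      rw [← hN]
      exact N.pow_index_mem g
    have h4 : g = (g ^ 2)⁻¹ * g ^ 3 := by group
    rw [h4]
    exact mul_mem (inv_mem h2) h
  have hk3 : k ^ 3 % 7 = 1 ∨ k ^ 3 % 7 = 6 := by
    have h2 : k % 7 = 1 ∨ k % 7 = 2 ∨ k % 7 = 3 ∨ k % 7 = 4 ∨ k % 7 = 5 ∨ k % 7 = 6 := by omega
    rw [Nat.pow_mod]
    rcases h2 with h | h | h | h | h | h <;> rw [h] <;> norm_num
  rcases hk3 with h | h
  · refine hcl _ hg3 1 (one_mem _) ?_
    rw [hpow, ← pow_mod_orderOf, ho, h]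
    group
  · refine hcl _ hg3 a haN ?_
    rw [hpow, ← pow_mod_orderOf, ho, h, hinv]
    refine eq_inv_of_mul_eq_one_left ?_
    rw [← pow_succ]
    exact hel x hx

end Cfsg.Agent.H17.LB
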